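import Cfsg.Agent.H510.Tri3.FourB
import Cfsg.Agent.H384.RC.Rot

/-!
# S3510, triality type iii: four anisotropic planes (helper510, helper384, helper452)
-/

set_option autoImplicit false
open Cfsg

namespace Cfsg.Agent.H510.Tri3

open Module QuadraticMap MulAction
open Cfsg.Agent.LieClassical.OrthCore Cfsg.Agent.LieClassical.OrthTrans
open Cfsg.Agent.LieClassical.OrthSimple Cfsg.Agent.ClassicalGeometry.OrthSemi
open Cfsg.Agent.ClassicalGeometry.OrthAut1 Cfsg.Agent.H106.RC Cfsg.Agent.H93.RC Cfsg.Agent.H566.RC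
open Cfsg.Agent.LieClassical.QuadForms Cfsg.Agent.ClassicalGeometry.TrialityOct
open Cfsg.Agent.ClassicalGeometry.Triality Cfsg.Agent.ClassicalGeometry.TrialitySpaces
open Cfsg.Agent.H198.TriBase Cfsg.Agent.H198.TriAut Cfsg.Agent.H206.Balance Cfsg.Agent.H198.TriDia
open Cfsg.Agent.H198.TwComp Cfsg.Agent.H198 Cfsg.Agent.H864.RC Cfsg.Agent.H452.RC.FMP

variable {F : Type} [Field F]

theorem rotStmt [Finite F] (hG : Good (plusForm 4 F)) : RotStmt F :=
  fun _ two perp aniso _ hl hl2 hlq => Cfsg.Agent.H384.RC.RotP.exists_rot hG two perp aniso hl hl2 hlq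

variable {G Ω ι : Type} [Group G] [MulAction G Ω] {N : Subgroup G} {hG : Good (plusForm 4 F)}
  {κ : P8 F →* G} {s : F ≃+* F} {x₁ : G} {x : ι → G} {r : ι → ℕ} {g : ι → (V8 F ≃ₗ[F] V8 F)}

/-- four orthogonal anisotropic planes on which the `g i` act as rotations -/
theorem dead_G3_rot [Finite F] [Finite G] [Finite ι] [Nonempty Ω] {p : ℕ} [CharP F p]
    (h : T3 hG N κ s Ω x₁ x r g) (hIH : IH (Nat.card N)) (hrp : ∀ i, r i ≠ p)
    {P : Fin 4 → Submodule F (V8 F)} (hP : G3 g P)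
    (hrot : ∀ k i, ∃ t : F, ∀ v ∈ P k, g i (g i v) + v = t • g i v) : False :=
  dead_G3_mod (rotStmt hG) h hIH hrp hP hrot

/-- four orthogonal anisotropic planes, `2` is not among the `r i` if the characteristic is odd -/
theorem dead_G3_odd [Finite F] [Finite G] [Finite ι] [Nonempty Ω] {p : ℕ} [CharP F p]
    (h : T3 hG N κ s Ω x₁ x r g) (hIH : IH (Nat.card N)) (hrp : ∀ i, r i ≠ p) (h2 : ∀ i, r i = 2 → p = 2)
    {P : Fin 4 → Submodule F (V8 F)} (hP : G3 g P) : False :=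
  dead_G3_odd_mod (rotStmt hG) h hIH hrp h2 hP

end Cfsg.Agent.H510.Tri3
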