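import Cfsg.Agent.H256.RC.ZBase
import Cfsg.Agent.H452.RC.FMPa
import Cfsg.Agent.LieClassical.OrthFinite

/-!
# S3510, triality type iii, box INV (A): the fixed space of an involution contains an idempotent (helper510)
-/

set_option autoImplicit false
set_option linter.unusedSectionVars false
open Cfsg

namespace Cfsg.Agent.H510.Tri3

open Module QuadraticMap MulAction
open Cfsg.Agent.LieClassical.OrthCore Cfsg.Agent.LieClassical.OrthTrans
open Cfsg.Agent.LieClassical.OrthSimple Cfsg.Agent.ClassicalGeometry.OrthSemi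
open Cfsg.Agent.ClassicalGeometry.OrthAut1
open Cfsg.Agent.LieClassical.QuadForms Cfsg.Agent.ClassicalGeometry.TrialityOct
open Cfsg.Agent.ClassicalGeometry.Triality Cfsg.Agent.ClassicalGeometry.TrialitySpaces
open Cfsg.Agent.H198.TriBase Cfsg.Agent.H198.TriAut Cfsg.Agent.H198.TriDia
open Cfsg.Agent.H198.TwComp Cfsg.Agent.H198 Cfsg.Agent.H452.RC.FMP

/-- the norm to the fixed field of `s` is surjective -/
theorem exists_norm {F : Type} [Field F] [Finite F] {s : F ≃+* F} (h3 : ∀ a, s (s (s a)) = a)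
    (hne : s ≠ RingEquiv.refl F) {g : F} (hg : s g = g) (hg0 : g ≠ 0) : ∃ c : F, c * s c * s.symm c = g := by
  obtain ⟨q0, h0, hq, -, hfix, hs⟩ := H256.RC.BQ h3 hne
  have hsym : ∀ a, s.symm a = s (s a) := fun a => by rw [RingEquiv.symm_apply_eq, h3]
  have hcard : ∀ a : F, a ^ Nat.card F = a := by
    have : Fintype F := Fintype.ofFinite F
    intro a
    rw [Nat.card_eq_fintype_card]
    exact FiniteField.pow_card a
  have hprod : ∀ c : F, c * s c * s.symm c = c ^ (1 + q0 + q0 ^ 2) := by
    intro c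
    rw [hsym]
    rcases hs with hs | hs
    · rw [hs, hs, ← pow_mul, pow_add, pow_add, pow_one, ← pow_two]
    · rw [hs, hs, ← pow_mul]
      have h1 : c ^ (q0 ^ 2 * q0 ^ 2) = c ^ q0 := by
        have h2 : q0 ^ 2 * q0 ^ 2 = Nat.card F * q0 := by rw [hq]; ring
        rw [h2, pow_mul, hcard]
      rw [h1, pow_add, pow_add, pow_one]
      ring
  obtain ⟨ζ, hζ⟩ := IsCyclic.exists_generator (α := Fˣ)
  have hord : orderOf ζ = Nat.card F - 1 := by
    rw [orderOf_eq_card_of_forall_mem_zpowers hζ]
    have : Fintype F := Fintype.ofFinite F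
    classical
    rw [Nat.card_eq_fintype_card, Nat.card_eq_fintype_card, Fintype.card_units]
  have hmem : ∀ u : Fˣ, ∃ k : ℕ, ζ ^ k = u := by
    intro u
    have h1 := hζ u
    rw [← mem_powers_iff_mem_zpowers] at h1
    exact h1
  obtain ⟨k, hk⟩ := hmem (Units.mk0 g hg0)
  have hgq : g ^ q0 = g := (hfix g).1 hg
  have h4 : ζ ^ (k * (q0 - 1)) = 1 := by
    rw [pow_mul, hk]
    apply Units.ext
    rw [Units.val_pow_eq_pow_val, Units.val_mk0, Units.val_one]
    have h5 : g ^ (q0 - 1) * g = 1 * g := by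
      rw [← pow_succ, Nat.sub_add_cancel (by omega), hgq, one_mul]
    exact mul_right_cancel₀ hg0 h5
  have h5 := orderOf_dvd_of_pow_eq_one h4
  have h6 : Nat.card F - 1 = (1 + q0 + q0 ^ 2) * (q0 - 1) := by
    rw [hq]
    obtain ⟨m, rfl⟩ : ∃ m, q0 = m + 1 := ⟨q0 - 1, by omega⟩
    have h7 : (m + 1) ^ 3 = (1 + (m + 1) + (m + 1) ^ 2) * m + 1 := by ring
    rw [h7, Nat.add_sub_cancel, Nat.add_sub_cancel]
  rw [hord, h6] at h5
  have h7 : 1 + q0 + q0 ^ 2 ∣ k := Nat.dvd_of_mul_dvd_mul_right (by omega) h5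
  obtain ⟨j, hj⟩ := h7
  refine ⟨((ζ ^ j : Fˣ) : F), ?_⟩
  rw [hprod, ← Units.val_pow_eq_pow_val, ← pow_mul, mul_comm j, ← hj, hk, Units.val_mk0]

variable {F : Type} [Field F]

/-- (A) the fixed space of an involution contains an idempotent -/
theorem exists_idem [Finite F] {s : F ≃+* F} (h3 : ∀ a, s (s (s a)) = a) (hne : s ≠ RingEquiv.refl F)
    (h2 : (2 : F) ≠ 0) {t : V8 F ≃ₗ[F] V8 F} (ht : t ∈ AutD (fG s)) (htt : t * t = 1) :
    ∃ e : V8 F, e ≠ 0 ∧ t e = e ∧ dia (fG s) e e = e := by
  have htc : TC (plusForm 4 F) s (dia (fG s)) := H256.RC.tc_fG h3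
  have htO : t ∈ O (plusForm 4 F) := E_le_O ht.1
  have htp : ∀ u v, polar (plusForm 4 F) (t u) (t v) = polar (plusForm 4 F) u v := polar_map htO
  have htv : ∀ v, t (t v) = v := fun v => congrArg (fun c : V8 F ≃ₗ[F] V8 F => c v) htt
  have hQ : Nondeg (plusForm 4 F) := Cfsg.Agent.ClassicalGeometry.Triality.nondeg8
  set W := fix t with hW
  have hnd : ND (plusForm 4 F) W := nd_fix (n := 2) hQ htp (by exact_mod_cast h2) (by rw [pow_two]; exact htt)
  have hcl : Closed (dia (fG s)) W := fun u hu w hw => by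
    rw [mem_fix] at hu hw ⊢
    rw [ht.2, hu, hw]
  -- the orthogonal space is the other eigenspace
  have hperp : ∀ v ∈ perp (plusForm 4 F) W, t v = -v := by
    intro v hv
    have h4 : v + t v ∈ W := by
      rw [mem_fix, map_add, htv, add_comm]
    have h5 : v + t v = 0 := by
      apply hnd _ h4
      intro w hw
      have h6 : polar (plusForm 4 F) (t v) w = 0 := by
        have h7 := htp v w
        rw [mem_fix.1 hw, hv w hw] at h7
        exact h7
      rw [polar_add_left, hv w hw, h6, add_zero]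
    exact (neg_eq_of_add_eq_zero_right h5).symm
  have h4W : 4 ≤ finrank F W := by
    have h8 : finrank F (V8 F) = 8 := by
      rw [Module.finrank_fintype_fun_eq_card]
      rfl
    have h9 : finrank F (V8 F) ≤ finrank F W + finrank F (perp (plusForm 4 F) W) := by
      have h10 : W ⊔ perp (plusForm 4 F) W = ⊤ := by
        rw [Submodule.eq_top_iff']
        intro v
        obtain ⟨a, ha, b, hb, rfl⟩ := exists_decomp hnd v
        exact Submodule.add_mem_sup ha hb
      have h11 := Submodule.finrank_sup_add_finrank_inf_eq W (perp (plusForm 4 F) W)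
      rw [h10, finrank_top] at h11
      exact le_trans (Nat.le_add_right _ _) (le_of_eq h11)
    by_cases hT : W = ⊤
    · rw [hT, finrank_top, h8]
      norm_num
    obtain ⟨b, hb, hb0⟩ := exists_nonsing hQ hnd hT
    have hle : finrank F (perp (plusForm 4 F) W) ≤ finrank F W := by
      have hmem : ∀ w ∈ perp (plusForm 4 F) W, dia (fG s) w b ∈ W := by
        intro w hw
        rw [mem_fix, ht.2, hperp w hw, hperp b hb, htc.neg_left, htc.neg_right, neg_neg]
      have hinj : ∀ w w' : V8 F, dia (fG s) w b = dia (fG s) w' b → w = w' := by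
        intro w w' he
        have h1 := htc.right b w
        rw [he, htc.right] at h1
        have h2 : s.symm (plusForm 4 F b) ≠ 0 := fun h3 => hb0 ((map_eq_zero s.symm).1 h3)
        exact (smul_right_injective (V8 F) h2 h1).symm
      have : Finite (V8 F) := Module.finite_of_finite F
      let f : perp (plusForm 4 F) W → W := fun w => ⟨dia (fG s) w b, hmem w w.2⟩
      have hf : Function.Injective f := fun w w' he => Subtype.ext (hinj w w' (congrArg Subtype.val he))
      have hle := Nat.card_le_card_of_injective f hf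
      have e1 : Nat.card W = Nat.card F ^ finrank F W := Module.natCard_eq_pow_finrank
      have e2 : Nat.card (perp (plusForm 4 F) W) = Nat.card F ^ finrank F (perp (plusForm 4 F) W) :=
        Module.natCard_eq_pow_finrank
      rw [e1, e2] at hle
      exact (Nat.pow_le_pow_iff_right Finite.one_lt_card).1 hle
    have h12 : finrank F (V8 F) ≤ finrank F W + finrank F W := le_trans h9 (Nat.add_le_add_left hle _)
    rw [h8] at h12
    omega
  -- the twisted composition on `W`
  let m' : W → W → W := fun a b => ⟨dia (fG s) a b, hcl a a.2 b b.2⟩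
  let Q' : QuadraticForm F W := (plusForm 4 F).comp W.subtype
  have hQ' : ∀ v : W, Q' v = plusForm 4 F (v : V8 F) := fun v => rfl
  have hpol : ∀ v w : W, polar Q' v w = polar (plusForm 4 F) (v : V8 F) w := fun v w => rfl
  have hm : ∀ a b : W, ((m' a b : W) : V8 F) = dia (fG s) a b := fun a b => rfl
  have htc' : TC Q' s m' :=
    { add_left := fun a b c => Subtype.ext (htc.add_left a b c)
      add_right := fun a b c => Subtype.ext (htc.add_right a b c)
      smul_left := fun k a b => Subtype.ext (htc.smul_left k a b)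
      smul_right := fun k a b => Subtype.ext (htc.smul_right k a b)
      left := fun a b => Subtype.ext (htc.left a b)
      right := fun a b => Subtype.ext (htc.right a b)
      cube := h3 }
  have hnd' : Nondeg Q' := by
    intro v hv
    exact Subtype.ext (hnd v v.2 fun w hw => by rw [← hpol v ⟨w, hw⟩]; exact hv ⟨w, hw⟩)
  obtain ⟨a, haW, ha0, ha⟩ := Cfsg.Agent.LieClassical.OrthFinite.exists_sing_mem (Q := plusForm 4 F) W
    (le_trans (by norm_num) h4W)
  have key : ∃ e : W, e ≠ 0 ∧ m' e e = e := by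
    set a' : W := ⟨a, haW⟩ with ha'
    have h5 : Q' a' = 0 := ha
    have h6 : a' ≠ 0 := fun h => ha0 (congrArg Subtype.val h)
    by_cases h7 : m' a' a' = 0
    · obtain ⟨e, he0, he, -⟩ := htc'.idem_of_sq_zero hnd' h6 h7
      exact ⟨e, he0, he⟩
    obtain ⟨h8, h9⟩ := htc'.sq_sq h5 h6
    by_cases h10 : polar Q' a' (m' a' a') = 0
    · rw [h10, zero_smul] at h8
      obtain ⟨e, he0, he, -⟩ := htc'.idem_of_sq_zero hnd' h7 h8
      exact ⟨e, he0, he⟩
    · obtain ⟨c, hc⟩ := exists_norm h3 hne (g := (polar Q' a' (m' a' a'))⁻¹) (by rw [map_inv₀, h9]) (inv_ne_zero h10)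
      exact htc'.idem_of_norm h5 h6 (c := c) (by rw [hc, inv_mul_cancel₀ h10])
  obtain ⟨e, he0, he⟩ := key
  exact ⟨e, fun h => he0 (Subtype.ext h), mem_fix.1 e.2, by rw [← hm, he]⟩

end Cfsg.Agent.H510.Tri3
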