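import Cfsg.Agent.H510.Tri3.SUTwo
import Cfsg.Agent.H864.RC.Def3

/-!
# S3510, triality type iii: box QUAD (helper510)

* `quad_kill` : the cover `{y} ∪ {g i}`, `y` acts on `W` as a power of `c`, `c + c⁻¹ = τ` on `W` without eigenvectors;
* `dead_quad` : the exact statement of the stubs.
-/

set_option autoImplicit false
set_option linter.unusedSectionVars false
open Cfsg

namespace Cfsg.Agent.H510.Tri3

open QuadraticMap Module MulAction
open Cfsg.Agent.LieClassical.OrthCore Cfsg.Agent.LieClassical.OrthTrans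
open Cfsg.Agent.LieClassical.OrthSimple Cfsg.Agent.ClassicalGeometry.OrthSemi
open Cfsg.Agent.ClassicalGeometry.OrthAut1 Cfsg.Agent.H106.RC Cfsg.Agent.H93.RC Cfsg.Agent.H566.RC
open Cfsg.Agent.LieClassical.QuadForms Cfsg.Agent.ClassicalGeometry.TrialityOct
open Cfsg.Agent.ClassicalGeometry.Triality Cfsg.Agent.ClassicalGeometry.TrialitySpaces
open Cfsg.Agent.H198.TriBase Cfsg.Agent.H198.TriAut Cfsg.Agent.H338.RC Cfsg.Agent.H188.RC

section gen

variable {F V : Type} [Field F] [Finite F] [AddCommGroup V] [Module F V] [FiniteDimensional F V] {Q : QuadraticForm F V}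
  {G Ω ι : Type} [Group G] [MulAction G Ω] {N : Subgroup G} {κ : ↥(E Q) →* G}

/-- `{y} ∪ {g i}` is not a cover -/
theorem quad_kill [Finite G] [Finite ι] [Nonempty Ω] {p : ℕ} [CharP F p] (hG : Good Q)
    (hE : Env G Ω N) (hρ : Rep Q N κ) (hIH : IH (Nat.card N)) (h8 : 8 ≤ Nat.card F) (h9 : Nat.card F ≠ 9)
    {g : ι → ↥(E Q)} {r : ι → ℕ} (hx : PF (fun i => κ (g i)) r) (hrp : ∀ i, r i ≠ p)
    (y : ↥(E Q)) {l : ℕ} (hl : l.Prime) (hlp : l ≠ p) (hyl : y ^ l = 1) (hy1 : κ y ≠ 1) (hyg : ∀ i, y * g i = g i * y)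
    (W : Submodule F V) (hW4 : finrank F W = 4)
    (hWn : ∀ v ∈ W, (∀ w ∈ W, polar Q v w = 0) → v = 0) (hWg : ∀ i, ∀ v ∈ W, (g i : V ≃ₗ[F] V) v ∈ W)
    (c : ↥(E Q)) (hcg : ∀ i, ∀ v ∈ W, (c : V ≃ₗ[F] V) ((g i : V ≃ₗ[F] V) v) = (g i : V ≃ₗ[F] V) ((c : V ≃ₗ[F] V) v))
    (hWc : ∀ v ∈ W, (c : V ≃ₗ[F] V) v ∈ W)
    (τ : F) (hτ : ∀ v ∈ W, (c : V ≃ₗ[F] V) ((c : V ≃ₗ[F] V) v) + v = τ • (c : V ≃ₗ[F] V) v)
    (hne : ∀ v ∈ W, ∀ a : F, (c : V ≃ₗ[F] V) v = a • v → v = 0)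
    (n : ℕ) (hyc : ∀ v ∈ W, (y : V ≃ₗ[F] V) v = ((c ^ n : ↥(E Q)) : V ≃ₗ[F] V) v)
    (hcov : ∀ ω : Ω, κ y • ω = ω ∨ ∃ i, κ (g i) • ω = ω) : False := by
  classical
  -- the restriction of `c`
  let k : W →ₗ[F] W := ((c : V ≃ₗ[F] V) : V →ₗ[F] V).restrict hWc
  have hk : ∀ w : W, ((k w : W) : V) = (c : V ≃ₗ[F] V) w := fun w => rfl
  have hndW : Nondeg (Q.comp W.subtype) := by
    intro w hw
    apply Subtype.ext
    exact hWn w w.2 (fun v hv => hw ⟨v, hv⟩)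
  have hkk : ∀ v, k (k v) = τ • k v - (1 : F) • v := by
    intro v
    apply Subtype.ext
    have h1 := hτ v v.2
    change (c : V ≃ₗ[F] V) ((c : V ≃ₗ[F] V) v) = τ • (c : V ≃ₗ[F] V) v - (1 : F) • (v : V)
    rw [one_smul, ← h1, add_sub_cancel_right]
  have hirr : ∀ a : F, a * a - τ * a + 1 ≠ 0 := by
    intro a ha
    have : Nontrivial W := Module.nontrivial_of_finrank_pos (R := F) (by omega)
    obtain ⟨w, hw⟩ := exists_ne (0 : W)
    have ha0 : a ≠ 0 := by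
      rintro rfl
      simp at ha
    have hta : τ = a + a⁻¹ := by
      field_simp
      linear_combination -ha
    have h1 : k (k w - a⁻¹ • w) = a • (k w - a⁻¹ • w) := by
      rw [map_sub, map_smul, hkk, hta]
      rw [smul_sub, smul_smul, mul_inv_cancel₀ ha0]
      module
    have h2 := hne _ (k w - a⁻¹ • w).2 a (congrArg Subtype.val h1)
    have h3 : k w = a⁻¹ • w := sub_eq_zero.1 (Subtype.ext h2)
    have h4 := hne _ w.2 a⁻¹ (congrArg Subtype.val h3)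
    exact hw (Subtype.ext h4)
  have hQk : ∀ v, (Q.comp W.subtype) (k v) = 1 * (Q.comp W.subtype) v := by
    intro v
    rw [one_mul]
    exact E_le_O c.2 v
  obtain ⟨K, _, _, _, _, _, α, hHK, hα, hFK, hdec⟩ := exists_HK hndW k τ 1 hkk hirr hQk
  have h2 : finrank K W = 2 := by
    have h3 := Module.finrank_mul_finrank F K W
    rw [hFK, hW4] at h3
    omega
  have hpow : ∀ (m : ℕ) (w : W), ((α ^ m • w : W) : V) = ((c ^ m : ↥(E Q)) : V ≃ₗ[F] V) w := by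
    intro m
    induction m with
    | zero => intro w; rw [pow_zero, pow_zero, one_smul]; rfl
    | succ m ih =>
      intro w
      rw [pow_succ, mul_smul, ih, hα, hk, pow_succ]
      rfl
  -- the family
  let z : Option ι → ↥(E Q) := fun o => o.elim y g
  let r' : Option ι → ℕ := fun o => o.elim l r
  have hcW : ∀ (m : ℕ), ∀ v ∈ W, ((c ^ m : ↥(E Q)) : V ≃ₗ[F] V) v ∈ W := by
    intro m v hv
    rw [← hpow m ⟨v, hv⟩]
    exact (α ^ m • (⟨v, hv⟩ : W)).2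
  have hzW : ∀ o, ∀ v ∈ W, (z o : V ≃ₗ[F] V) v ∈ W := by
    rintro (_ | i) v hv
    · change (y : V ≃ₗ[F] V) v ∈ W
      rw [hyc v hv]
      exact hcW n v hv
    · exact hWg i v hv
  have hzc : ∀ o, ∀ v ∈ W, (c : V ≃ₗ[F] V) ((z o : V ≃ₗ[F] V) v) = (z o : V ≃ₗ[F] V) ((c : V ≃ₗ[F] V) v) := by
    rintro (_ | i) v hv
    · change (c : V ≃ₗ[F] V) ((y : V ≃ₗ[F] V) v) = (y : V ≃ₗ[F] V) ((c : V ≃ₗ[F] V) v)
      rw [hyc v hv, hyc _ (hWc v hv)]
      have h3 : c * c ^ n = c ^ n * c := by rw [← pow_succ, ← pow_succ']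
      exact congrArg (fun f : ↥(E Q) => (f : V ≃ₗ[F] V) v) h3
    · exact hcg i v hv
  have hup : ∀ a b : ↥(E Q), a * b = b * a → κ a * κ b = κ b * κ a := fun a b hab => by
    rw [← map_mul, hab, map_mul]
  -- lifts and restrictions
  have hW' : ∀ o, ∃ L : Gam (Q.comp W.subtype), ∀ w : W, ((L.1 w : W) : V) = (tg Q (z o)).1 w := by
    intro o
    obtain ⟨σ, a, hM⟩ := (tg Q (z o)).2
    have hfin : Finite V := Module.finite_of_finite F
    obtain ⟨L, hL, hLM⟩ := exists_restr (W := W) hM (hzW o)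
    exact ⟨⟨L, σ, a, hL⟩, hLM⟩
  choose L hL using hW'
  have hLl : ∀ o (a : F) (w : W), (L o).1 (a • w) = a • (L o).1 w := by
    intro o a w
    apply Subtype.ext
    rw [hL]
    change (z o : V ≃ₗ[F] V) (a • (w : V)) = a • ((((L o).1 w : W)) : V)
    rw [hL, map_smul]
    rfl
  have hLa : ∀ o (v w : W), (L o).1 (v + w) = (L o).1 v + (L o).1 w := fun o => add_of_mem (L o).2
  have hLk : ∀ o (w : W), (L o).1 (k w) = k ((L o).1 w) := by
    intro o w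
    apply Subtype.ext
    rw [hk, hL, hL]
    exact (hzc o w w.2).symm
  have hlin : ∀ o (a : K) (w : W), (L o).1 (a • w) = a • (L o).1 w := by
    intro o a w
    obtain ⟨b, d, rfl⟩ := hdec a
    have h3 : ∀ w : W, (algebraMap F K b + algebraMap F K d * α) • w = b • w + d • k w := by
      intro w
      rw [add_smul, mul_smul, algebraMap_smul, algebraMap_smul, hα]
    rw [h3, h3, hLa, hLl, hLl, hLk]
  refine box_SU2 (p := p) (ι := Option ι) (x := fun o => κ (z o)) (M := fun o => tg Q (z o)) (r := r') hHK hG hE hρ hIH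
    (fun o => Lf.tg (ρ := κ) (z o)) ?_ ?_ ?_ ?_ ?_ ?_ (by omega) h9 hFK h2 hG.dim L hL hlin ?_
  · rintro (_ | i)
    · exact hl
    · exact hx.prime i
  · rintro (_ | i)
    · exact hlp
    · exact hrp i
  · rintro (_ | i)
    · change κ y ^ l = 1
      rw [← map_pow, hyl, map_one]
    · exact hx.pow i
  · rintro (_ | i)
    · exact hy1
    · exact hx.ne i
  · rintro (_ | i) (_ | j)
    · rfl
    · exact hup _ _ (hyg j)
    · exact hup _ _ (hyg i).symm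
    · exact hx.comm i j
  · intro ω
    rcases hcov ω with h3 | ⟨i, h3⟩
    · exact ⟨none, h3⟩
    · exact ⟨some i, h3⟩
  · have hcS : ∃ a : K, ∀ v : W, (L none).1 v = a • v := by
      refine ⟨α ^ n, fun v => ?_⟩
      apply Subtype.ext
      rw [hL, hpow]
      exact hyc v v.2
    rintro (_ | i) (_ | j) hij
    · exact Or.inl rfl
    · exact Or.inr (Or.inl hcS)
    · exact Or.inr (Or.inr hcS)
    · exact Or.inl (congrArg some (hx.inj hij))

end gen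

variable {F : Type} [Field F] {G Ω ι : Type} [Group G] [MulAction G Ω] {N : Subgroup G} {κ : P8 F →* G}

/-- box QUAD -/
theorem dead_quad [Finite F] [Finite G] [Finite ι] [Nonempty Ω] {p : ℕ} [CharP F p] (hG : Good (plusForm 4 F))
    (hE : Env G Ω N) (hκ : Rp (plusForm 4 F) N κ) (hIH : IH (Nat.card N)) (h8 : 8 ≤ Nat.card F) (h9 : Nat.card F ≠ 9)
    {g : ι → ↥(E (plusForm 4 F))} {r : ι → ℕ} (hx : PF (fun i => up κ (g i)) r) (hrp : ∀ i, r i ≠ p)
    (c : ↥(E (plusForm 4 F))) {l : ℕ} (hl : l.Prime) (hl2 : l ≠ 2) (hlp : l ≠ p) (hcl : c ^ l = 1)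
    (hcg : ∀ i, c * g i = g i * c) (W : Submodule F (V8 F)) (hW4 : finrank F W = 4)
    (hWn : ∀ v ∈ W, (∀ w ∈ W, polar (plusForm 4 F) v w = 0) → v = 0)
    (hWg : ∀ i, ∀ v ∈ W, (g i : V8 F ≃ₗ[F] V8 F) v ∈ W) (hWc : ∀ v ∈ W, (c : V8 F ≃ₗ[F] V8 F) v ∈ W)
    (τ : F) (hτ : ∀ v ∈ W, (c : V8 F ≃ₗ[F] V8 F) ((c : V8 F ≃ₗ[F] V8 F) v) + v = τ • (c : V8 F ≃ₗ[F] V8 F) v)
    (hne : ∀ v ∈ W, ∀ a : F, (c : V8 F ≃ₗ[F] V8 F) v = a • v → v = 0)
    (hcov : ∀ ω : Ω, up κ c • ω = ω ∨ ∃ i, up κ (g i) • ω = ω) : False := by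
  have hc1 : up κ c ≠ 1 := by
    intro h1
    have h2 : c ∈ Subgroup.center ↥(E (plusForm 4 F)) := by rw [← hκ.rep.ker, MonoidHom.mem_ker, h1]
    obtain ⟨a, ha⟩ := center_scalar hG h2
    have : Nontrivial W := Module.nontrivial_of_finrank_pos (R := F) (by omega)
    obtain ⟨w, hw⟩ := exists_ne (0 : W)
    exact hw (Subtype.ext (hne w w.2 a (ha w)))
  exact quad_kill hG hE hκ.rep hIH h8 h9 hx hrp c hl hlp hcl hc1 hcg W hW4 hWn hWg c
    (fun i v _ => congrArg (fun f : ↥(E (plusForm 4 F)) => (f : V8 F ≃ₗ[F] V8 F) v) (hcg i)) hWc τ hτ hne 1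
    (fun v _ => by rw [pow_one]) hcov

end Cfsg.Agent.H510.Tri3
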