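import Cfsg.Agent.H510.Tri3.FourA

/-!
# S3510, triality type iii: an isometry of odd order (or in characteristic two) acts on an anisotropic plane as a
rotation (helper510)
-/

set_option autoImplicit false
set_option linter.unusedSectionVars false
open Cfsg

namespace Cfsg.Agent.H510.Tri3

open Module QuadraticMap MulAction
open Cfsg.Agent.LieClassical.OrthCore Cfsg.Agent.LieClassical.OrthTrans
open Cfsg.Agent.LieClassical.OrthSimple Cfsg.Agent.ClassicalGeometry.OrthSemi
open Cfsg.Agent.ClassicalGeometry.OrthAut1 Cfsg.Agent.H106.RC Cfsg.Agent.H93.RC Cfsg.Agent.H566.RC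
open Cfsg.Agent.LieClassical.QuadForms Cfsg.Agent.ClassicalGeometry.TrialityOct
open Cfsg.Agent.ClassicalGeometry.Triality Cfsg.Agent.ClassicalGeometry.TrialitySpaces
open Cfsg.Agent.H198.TriBase Cfsg.Agent.H198.TriAut Cfsg.Agent.H206.Balance Cfsg.Agent.H198.TriDia
open Cfsg.Agent.H198.TwComp Cfsg.Agent.H198 Cfsg.Agent.H864.RC Cfsg.Agent.H452.RC.FMP

variable {F : Type} [Field F]

/-- Cayley–Hamilton on an invariant plane -/
theorem exists_det_tr {V : Type*} [AddCommGroup V] [Module F V] {P : Submodule F V} (two : finrank F P = 2)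
    (c : V →ₗ[F] V) (hP : ∀ v ∈ P, c v ∈ P) :
    ∀ v ∈ P, c (c v) + LinearMap.det (c.restrict hP) • v = LinearMap.trace F P (c.restrict hP) • c v := by
  have hfd : FiniteDimensional F P := FiniteDimensional.of_finrank_pos (by rw [two]; norm_num)
  let b : Basis (Fin 2) F P := Module.finBasisOfFinrankEq F P two
  set T := c.restrict hP with hT
  have h1 : T.charpoly = Polynomial.X ^ 2 - Polynomial.C (LinearMap.trace F P T) * Polynomial.X +
      Polynomial.C (LinearMap.det T) := by
    rw [← LinearMap.charpoly_toMatrix T b, Matrix.charpoly_fin_two, LinearMap.trace_eq_matrix_trace F b,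
      ← LinearMap.det_toMatrix b]
  have h2 := LinearMap.aeval_self_charpoly T
  rw [h1] at h2
  intro v hv
  have h3 := congrArg (fun f : P →ₗ[F] P => ((f ⟨v, hv⟩ : P) : V)) h2
  simp only [map_add, map_sub, map_mul, map_pow, Polynomial.aeval_X, Polynomial.aeval_C] at h3
  simp only [LinearMap.add_apply, LinearMap.sub_apply, Module.End.mul_apply, pow_two, Module.algebraMap_end_apply,
    LinearMap.zero_apply, Submodule.coe_add, Submodule.coe_sub, Submodule.coe_smul, Submodule.coe_zero] at h3
  have h4 : ((T (T ⟨v, hv⟩) : P) : V) = c (c v) := rfl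
  have h5 : ((T ⟨v, hv⟩ : P) : V) = c v := rfl
  rw [h4, h5] at h3
  rw [← sub_eq_zero, ← h3]
  abel

/-- the determinant of an isometry on an invariant nondegenerate plane -/
theorem det_sq {P : Submodule F (V8 F)} (hnd : ND (plusForm 4 F) P)
    {c : V8 F ≃ₗ[F] V8 F} (hc : c ∈ O (plusForm 4 F)) (hP : ∀ v ∈ P, (c : V8 F →ₗ[F] V8 F) v ∈ P) :
    LinearMap.det ((c : V8 F →ₗ[F] V8 F).restrict hP) ^ 2 = 1 := by
  classical
  set T := (c : V8 F →ₗ[F] V8 F).restrict hP with hT
  let B : LinearMap.BilinForm F P := ((polarBilin (plusForm 4 F)).domRestrict₁₂ P P)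
  have hB : ∀ v w : P, B v w = polar (plusForm 4 F) v w := fun v w => rfl
  have hn : B.Nondegenerate := by
    have hs : ∀ v w, B v w = B w v := fun v w => by rw [hB, hB, polar_comm]
    refine ⟨fun v hv => ?_, fun v hv => ?_⟩
    · exact Subtype.ext (hnd v v.2 (fun w hw => by have := hv ⟨w, hw⟩; rwa [hB] at this))
    · exact Subtype.ext (hnd v v.2 (fun w hw => by
        have := hv ⟨w, hw⟩
        rw [hs, hB] at this
        exact this))
  let b := Module.finBasis F P
  have h1 : B.comp T T = B := by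
    apply LinearMap.ext₂
    intro v w
    change polar (plusForm 4 F) (c v) (c w) = polar (plusForm 4 F) v w
    exact polar_map hc v w
  have h2 := congrArg (fun A => (LinearMap.BilinForm.toMatrix b A).det) h1
  simp only [LinearMap.BilinForm.toMatrix_comp b b, Matrix.det_mul, Matrix.det_transpose] at h2
  have h3 : (LinearMap.BilinForm.toMatrix b B).det ≠ 0 := (LinearMap.BilinForm.nondegenerate_iff_det_ne_zero b).1 hn
  rw [← LinearMap.det_toMatrix b T]
  have h4 : (((LinearMap.toMatrix b b) T).det ^ 2 - 1) * (LinearMap.BilinForm.toMatrix b B).det = 0 := by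
    rw [sub_mul, one_mul, sub_eq_zero]
    nth_rewrite 2 [← h2]
    ring
  rcases mul_eq_zero.1 h4 with h5 | h5
  · exact sub_eq_zero.1 h5
  · exact absurd h5 h3

theorem rot_of_odd [Finite F] {P : Submodule F (V8 F)} (two : finrank F P = 2)
    (aniso : ∀ v ∈ P, plusForm 4 F v = 0 → v = 0) {c : V8 F ≃ₗ[F] V8 F} (hc : c ∈ O (plusForm 4 F))
    (hP : ∀ v ∈ P, c v ∈ P) {n : ℕ} (hcn : c ^ n = 1) (hn : Odd n ∨ (2 : F) = 0) :
    ∃ t : F, ∀ v ∈ P, c (c v) + v = t • c v := by
  have hnd := nd_of_aniso two aniso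
  have h1 := det_sq hnd hc hP
  set T := (c : V8 F →ₗ[F] V8 F).restrict hP with hT
  have h2 : LinearMap.det T = 1 := by
    rcases hn with hn | hn
    · have h3 : T ^ n = 1 := by
        apply LinearMap.ext
        intro v
        apply Subtype.ext
        have h4 : ∀ m : ℕ, ((((T ^ m : P →ₗ[F] P) v : P)) : V8 F) = (c ^ m) v := by
          intro m
          induction m with
          | zero => rfl
          | succ m ih =>
            rw [pow_succ', pow_succ']
            change c (((T ^ m : P →ₗ[F] P) v : P) : V8 F) = c ((c ^ m) v)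
            rw [ih]
        rw [h4, hcn]
        rfl
      have h5 : LinearMap.det T ^ n = 1 := by rw [← map_pow, h3, map_one]
      exact eq_one_of_odd (by rw [← pow_two]; exact h1) hn h5
    · have h3 : (LinearMap.det T - 1) ^ 2 = 0 := by
        linear_combination h1 - (LinearMap.det T - 1) * hn
      exact sub_eq_zero.1 (pow_eq_zero_iff (two_ne_zero)|>.1 h3)
  refine ⟨LinearMap.trace F P T, fun v hv => ?_⟩
  have h3 := exists_det_tr two (c : V8 F →ₗ[F] V8 F) hP v hv
  rw [← hT, h2, one_smul] at h3
  exact h3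

end Cfsg.Agent.H510.Tri3
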